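import Cfsg.Agent.S0215
import Cfsg.Prelude.Def_Solvable

set_option autoImplicit false

namespace CfsgLib.ZStarP

open scoped Pointwise

/-- An automorphism of order at most two of a group of odd order fixes a Sylow subgroup. -/
theorem exists_inv_sylow {N : Type*} [Group N] [Finite N] (hodd : Odd (Nat.card N)) (α : MulAut N)
    (hα : α * α = 1) (q : ℕ) [Fact q.Prime] : ∃ Q : Sylow q N, ∀ x ∈ (Q : Subgroup N), α x ∈ (Q : Subgroup N) := by
  classical
  let A : Subgroup (MulAut N) := Subgroup.zpowers α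
  have hA : IsPGroup 2 A := by
    intro g
    refine ⟨1, ?_⟩
    obtain ⟨g, hg⟩ := g
    obtain ⟨k, rfl⟩ := Subgroup.mem_zpowers_iff.1 hg
    apply Subtype.ext
    show (α ^ k) ^ (2 ^ 1) = 1
    have h2 : α ^ 2 = 1 := by rw [sq]; exact hα
    rw [pow_one, ← zpow_natCast, ← zpow_mul, mul_comm, zpow_mul]
    have : α ^ ((2 : ℕ) : ℤ) = 1 := by rw [zpow_natCast, h2]
    simp only [Nat.cast_ofNat] at this ⊢
    rw [this, one_zpow]
  have hmod := hA.card_modEq_card_fixedPoints (Sylow q N)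
  have hcard : Odd (Nat.card (Sylow q N)) := by
    obtain ⟨Q₀⟩ : Nonempty (Sylow q N) := inferInstance
    have h1 : Nat.card (Sylow q N) ∣ Nat.card N :=
      Q₀.card_dvd_index.trans (Subgroup.index_dvd_card _)
    exact Odd.of_dvd_nat hodd h1
  have hfix : Nat.card (MulAction.fixedPoints A (Sylow q N)) ≠ 0 := by
    intro h0
    rw [h0] at hmod
    have : Nat.card (Sylow q N) % 2 = 0 := hmod
    rw [Nat.odd_iff] at hcard
    omega
  haveI : Finite (MulAction.fixedPoints A (Sylow q N)) := inferInstance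
  have hne : Nonempty (MulAction.fixedPoints A (Sylow q N)) := by
    by_contra hem
    rw [not_nonempty_iff] at hem
    exact hfix Nat.card_of_isEmpty
  obtain ⟨⟨Q, hQ⟩⟩ := hne
  refine ⟨Q, ?_⟩
  intro x hx
  have h1 : (⟨α, Subgroup.mem_zpowers α⟩ : A) • Q = Q := hQ _
  have h2 : α • Q = Q := h1
  have h3 : α • (Q : Subgroup N) = (Q : Subgroup N) := by
    have := congrArg (fun R : Sylow q N => (R : Subgroup N)) h2
    exact this
  rw [← h3]
  exact Subgroup.smul_mem_pointwise_smul x α _ hx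

/-- A subgroup of prime power index is complemented by Sylow subgroups, in the sense that they factor the group. -/
theorem mem_sylow_mul {N : Type*} [Group N] [Finite N] (p : ℕ) [Fact p.Prime] (P : Sylow p N) (C : Subgroup N)
    (e : ℕ) (hC : C.index = p ^ e) (w : N) : ∃ π ∈ (P : Subgroup N), ∃ c ∈ C, w = π * c := by
  classical
  have hpp : p.Prime := Fact.out
  -- orbit of the trivial coset under `P`
  let x₀ : N ⧸ C := ((1 : N) : N ⧸ C)
  have hst : MulAction.stabilizer (P : Subgroup N) x₀ = C.subgroupOf (P : Subgroup N) := by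
    ext g
    rw [MulAction.mem_stabilizer_iff, Subgroup.mem_subgroupOf]
    show (((g : N) • ((1 : N) : N ⧸ C)) = ((1 : N) : N ⧸ C)) ↔ _
    rw [MulAction.Quotient.smul_coe, smul_eq_mul, mul_one, QuotientGroup.eq]
    simp
  have h1 : C.relIndex (P : Subgroup N) = (MulAction.orbit (P : Subgroup N) x₀).ncard := by
    rw [← MulAction.index_stabilizer, hst]
    rfl
  have hR1 := Subgroup.relIndex_mul_index (inf_le_right : C ⊓ (P : Subgroup N) ≤ (P : Subgroup N))
  have hR2 := Subgroup.relIndex_mul_index (inf_le_left : C ⊓ (P : Subgroup N) ≤ C)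
  rw [Subgroup.inf_relIndex_right] at hR1
  have hdvd : p ^ e ∣ C.relIndex (P : Subgroup N) * (P : Subgroup N).index := by
    rw [hR1, ← hR2, hC]
    exact dvd_mul_left _ _
  have hcop : (p ^ e).Coprime (P : Subgroup N).index :=
    Nat.Coprime.pow_left _ ((Nat.Prime.coprime_iff_not_dvd hpp).2 P.not_dvd_index)
  have hd2 : p ^ e ∣ C.relIndex (P : Subgroup N) := hcop.dvd_of_dvd_mul_right hdvd
  have hpos : C.relIndex (P : Subgroup N) ≠ 0 := by
    intro h0
    rw [h0, zero_mul] at hR1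
    have : (C ⊓ (P : Subgroup N)).index ≠ 0 := Subgroup.index_ne_zero_of_finite
    exact this hR1.symm
  have hle : (MulAction.orbit (P : Subgroup N) x₀).ncard ≤ Nat.card (N ⧸ C) := by
    rw [← Set.ncard_univ]
    exact Set.ncard_le_ncard (Set.subset_univ _) (Set.toFinite _)
  have hcard : Nat.card (N ⧸ C) = p ^ e := hC
  have heq : (MulAction.orbit (P : Subgroup N) x₀).ncard = Nat.card (N ⧸ C) := by
    apply le_antisymm hle
    rw [hcard, ← h1]
    exact Nat.le_of_dvd (Nat.pos_of_ne_zero hpos) hd2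
  have huniv : MulAction.orbit (P : Subgroup N) x₀ = Set.univ := by
    exact (Set.eq_univ_iff_ncard _).2 heq
  have hw : (w : N ⧸ C) ∈ MulAction.orbit (P : Subgroup N) x₀ := by
    rw [huniv]; trivial
  obtain ⟨π, hπ⟩ := hw
  have hπ' : (((π : N) * 1 : N) : N ⧸ C) = (w : N ⧸ C) := hπ
  rw [mul_one, QuotientGroup.eq] at hπ'
  refine ⟨π, π.2, (π : N)⁻¹ * w, hπ', ?_⟩
  group

/-- The main theorem: a class of involutions with all products `p`-elements. -/
theorem main {G : Type*} [Group G] [Finite G] {p : ℕ} (hp : p.Prime) (hp2 : p ≠ 2)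
    (d : G) (hd : orderOf d = 2)
    (hprod : ∀ a ∈ conjugatesOf d, ∀ b ∈ conjugatesOf d, ∃ k : ℕ, orderOf (a * b) = p ^ k) :
    ∀ a ∈ conjugatesOf d, ∀ b ∈ conjugatesOf d, a * b ∈ Cfsg.pCore p G := by
  classical
  haveI : Fact p.Prime := ⟨hp⟩
  haveI : Fact (Nat.Prime 2) := ⟨by norm_num⟩
  have hd2 : d * d = 1 := by rw [← sq, ← hd]; exact pow_orderOf_eq_one d
  have hdinv : d⁻¹ = d := inv_eq_of_mul_eq_one_left hd2
  have hself : d ∈ conjugatesOf d := mem_conjugatesOf_self
  have hconj : ∀ g : G, g * d * g⁻¹ ∈ conjugatesOf d := fun g => by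
    show IsConj d _
    exact isConj_iff.2 ⟨g, rfl⟩
  have hconj' : ∀ a ∈ conjugatesOf d, ∃ g : G, a = g * d * g⁻¹ := by
    intro a ha
    obtain ⟨g, hg⟩ := isConj_iff.1 ha
    exact ⟨g, hg.symm⟩
  have ha2 : ∀ a ∈ conjugatesOf d, a * a = 1 := by
    intro a ha
    obtain ⟨g, rfl⟩ := hconj' a ha
    calc g * d * g⁻¹ * (g * d * g⁻¹) = g * (d * d) * g⁻¹ := by group
      _ = 1 := by rw [hd2]; group
  -- `p`-elements that are also `q`-elements are trivial
  have htriv : ∀ (q : ℕ) (hq : q.Prime) (hqp : q ≠ p) (x : G) (k l : ℕ), orderOf x = p ^ k → x ^ (q ^ l) = 1 → x = 1 := by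
    intro q hq hqp x k l h1 h2
    have h3 : orderOf x ∣ q ^ l := orderOf_dvd_of_pow_eq_one h2
    have hc : (p ^ k).Coprime (q ^ l) :=
      Nat.Coprime.pow _ _ ((Nat.coprime_primes hp hq).2 (Ne.symm hqp))
    rw [h1] at h3
    have h4 : p ^ k = 1 := Nat.Coprime.eq_one_of_dvd hc h3
    rw [← orderOf_eq_one_iff, h1, h4]
  -- `d` is isolated in a Sylow 2-subgroup
  have hpg : IsPGroup 2 (Subgroup.zpowers d) := by
    apply IsPGroup.of_card (n := 1)
    rw [Nat.card_zpowers, hd, pow_one]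
  obtain ⟨S, hS⟩ := hpg.exists_le_sylow
  have hdS : d ∈ (S : Subgroup G) := hS (Subgroup.mem_zpowers d)
  have hiso : ∀ g : G, g * d * g⁻¹ ∈ (S : Subgroup G) → g * d * g⁻¹ = d := by
    intro g hg
    have hmem : g * d * g⁻¹ * d ∈ (S : Subgroup G) := mul_mem hg hdS
    obtain ⟨l, hl⟩ := S.isPGroup' ⟨_, hmem⟩
    have hl' : (g * d * g⁻¹ * d) ^ (2 ^ l) = 1 := congrArg Subtype.val hl
    obtain ⟨k, hk⟩ := hprod _ (hconj g) d hself
    have h1 := htriv 2 Nat.prime_two (Ne.symm hp2) _ k l hk hl'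
    calc g * d * g⁻¹ = d⁻¹ := mul_eq_one_iff_eq_inv.1 h1
      _ = d := hdinv
  obtain ⟨N, hNn, hNodd, hcomm⟩ := Cfsg.Agent.S0215.result S d hd hdS hiso
  haveI := hNn
  let α : MulAut N := MulAut.conjNormal d
  have hαα : α * α = 1 := by
    show MulAut.conjNormal d * MulAut.conjNormal d = 1
    rw [← map_mul, hd2, map_one]
  have hαv : ∀ y : N, ((α y : N) : G) = d * y * d⁻¹ := fun y => MulAut.conjNormal_apply d y
  let C : Subgroup N := (Subgroup.centralizer ({d} : Set G)).subgroupOf N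
  have hCmem : ∀ y : N, y ∈ C ↔ d * (y : G) = y * d := by
    intro y
    rw [Subgroup.mem_subgroupOf, Subgroup.mem_centralizer_singleton_iff]
    exact ⟨fun h => h.symm, fun h => h.symm⟩
  -- commutators with `d` are `p`-elements
  have hcommp : ∀ y : N, ∃ k : ℕ, orderOf ((y : G)⁻¹ * (d * y * d⁻¹)) = p ^ k := by
    intro y
    obtain ⟨k, hk⟩ := hprod _ (hconj ((y : G)⁻¹)) d hself
    refine ⟨k, ?_⟩
    rw [← hk]
    congr 1
    rw [hdinv]
    group
  -- the index of the centralizer is a power of `p`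
  have hidx : ∀ {q : ℕ}, q.Prime → q ∣ C.index → q = p := by
    intro q hq hqd
    by_contra hqp
    haveI : Fact q.Prime := ⟨hq⟩
    obtain ⟨Q, hQ⟩ := exists_inv_sylow hNodd α hαα q
    have hQC : (Q : Subgroup N) ≤ C := by
      intro y hy
      rw [hCmem]
      have hmem : y⁻¹ * α y ∈ (Q : Subgroup N) := mul_mem (inv_mem hy) (hQ y hy)
      obtain ⟨l, hl⟩ := Q.isPGroup' ⟨_, hmem⟩
      have hl' : ((y : G)⁻¹ * (d * y * d⁻¹)) ^ (q ^ l) = 1 := by
        have := congrArg (fun u : (Q : Subgroup N) => ((u : N) : G)) hl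
        simpa [hαv] using this
      obtain ⟨k, hk⟩ := hcommp y
      have h1 := htriv q hq hqp _ k l hk hl'
      have h2 : d * y * d⁻¹ = y := by
        have := mul_eq_one_iff_eq_inv.1 h1
        exact (inv_inj.1 this).symm
      calc d * (y : G) = (d * y * d⁻¹) * d := by group
        _ = y * d := by rw [h2]
    exact Q.not_dvd_index (hqd.trans (Subgroup.index_dvd_of_le hQC))
  have hC0 : C.index ≠ 0 := Subgroup.index_ne_zero_of_finite
  have hCe := Nat.eq_prime_pow_of_unique_prime_dvd hC0 (fun {q} hq hqd => hidx hq hqd)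
  obtain ⟨P, hP⟩ := exists_inv_sylow hNodd α hαα p
  -- every conjugate of `d` is a `P`-conjugate
  let P' : Subgroup G := (P : Subgroup N).map N.subtype
  have hkey : ∀ a ∈ conjugatesOf d, d * a ∈ P' := by
    intro a ha
    obtain ⟨g, rfl⟩ := hconj' a ha
    have hz : d * (g * d * g⁻¹) ∈ N := by
      have := hcomm g
      rw [hdinv] at this
      convert this using 1
      group
    let z : N := ⟨d * (g * d * g⁻¹), hz⟩
    have hm : Odd (orderOf z) := Odd.of_dvd_nat hNodd (orderOf_dvd_natCard z)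
    obtain ⟨k, hk⟩ := hm
    let w : N := z ^ (k + 1)
    have hww : w * w = z := by
      show z ^ (k + 1) * z ^ (k + 1) = z
      rw [← pow_add]
      have : k + 1 + (k + 1) = orderOf z + 1 := by omega
      rw [this, pow_succ, pow_orderOf_eq_one, one_mul]
    have hαz : α z = z⁻¹ := by
      apply Subtype.ext
      rw [hαv]
      show d * (d * (g * d * g⁻¹)) * d⁻¹ = (d * (g * d * g⁻¹))⁻¹
      rw [hdinv]
      have h5 := ha2 _ (hconj g)
      have h6 : (g * d * g⁻¹)⁻¹ = g * d * g⁻¹ := inv_eq_of_mul_eq_one_left h5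
      rw [mul_inv_rev, h6, hdinv, ← mul_assoc d d, hd2, one_mul]
    have hαw : α w = w⁻¹ := by
      show α (z ^ (k + 1)) = (z ^ (k + 1))⁻¹
      rw [map_pow, hαz, inv_pow]
    obtain ⟨π, hπ, c, hc, hw⟩ := mem_sylow_mul p P C _ hCe w⁻¹
    have hcd := (hCmem c).1 hc
    have hαwG : d * (w : G) * d⁻¹ = (w : G)⁻¹ := by
      have := congrArg (fun u : N => (u : G)) hαw
      simpa [hαv] using this
    have hzw : d * (g * d * g⁻¹) = (w : G) * w := by
      have := congrArg (fun u : N => (u : G)) hww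
      simpa using this.symm
    have hwG : (w : G)⁻¹ = (π : G) * c := by
      have := congrArg (fun u : N => (u : G)) hw
      simpa using this
    have ha' : g * d * g⁻¹ = (w : G)⁻¹ * d * w := by
      have h7 : g * d * g⁻¹ = d * (d * (g * d * g⁻¹)) := by
        rw [← mul_assoc, hd2, one_mul]
      rw [h7, hzw]
      calc d * ((w : G) * w) = (d * (w : G) * d⁻¹) * d * w := by group
        _ = _ := by rw [hαwG]
    have ha'' : g * d * g⁻¹ = (π : G) * d * (π : G)⁻¹ := by
      rw [ha', hwG]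
      have hw' : (w : G) = ((π : G) * c)⁻¹ := by rw [← hwG, inv_inv]
      rw [hw']
      calc (π : G) * c * d * ((π : G) * c)⁻¹ = (π : G) * (c * d) * (c : G)⁻¹ * (π : G)⁻¹ := by group
        _ = (π : G) * (d * c) * (c : G)⁻¹ * (π : G)⁻¹ := by rw [hcd]
        _ = _ := by group
    refine ⟨α π * π⁻¹, mul_mem (hP π hπ) (inv_mem hπ), ?_⟩
    show ((α π * π⁻¹ : N) : G) = d * (g * d * g⁻¹)
    rw [ha'', Subgroup.coe_mul, hαv, Subgroup.coe_inv, hdinv]
    group
  have hprodP : ∀ a ∈ conjugatesOf d, ∀ b ∈ conjugatesOf d, a * b ∈ P' := by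
    intro a ha b hb
    have h1 : a * b = (d * a)⁻¹ * (d * b) := by
      have h6 : a⁻¹ = a := inv_eq_of_mul_eq_one_left (ha2 a ha)
      rw [mul_inv_rev, h6, hdinv]
      calc a * b = a * (d * d) * b := by rw [hd2, mul_one]
        _ = a * d * (d * b) := by group
    rw [h1]
    exact mul_mem (inv_mem (hkey a ha)) (hkey b hb)
  -- the normal closure
  let S₀ : Set G := {x | ∃ a ∈ conjugatesOf d, ∃ b ∈ conjugatesOf d, x = a * b}
  let T : Subgroup G := Subgroup.normalClosure S₀
  have hTP : T ≤ P' := by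
    show Subgroup.closure (Group.conjugatesOfSet S₀) ≤ P'
    rw [Subgroup.closure_le]
    intro x hx
    obtain ⟨s, ⟨a, ha, b, hb, rfl⟩, hsx⟩ := Group.mem_conjugatesOfSet_iff.1 hx
    obtain ⟨h, rfl⟩ := isConj_iff.1 hsx
    have h1 : h * (a * b) * h⁻¹ = (h * a * h⁻¹) * (h * b * h⁻¹) := by group
    rw [h1]
    obtain ⟨g₁, rfl⟩ := hconj' a ha
    obtain ⟨g₂, rfl⟩ := hconj' b hb
    apply hprodP
    · have : h * (g₁ * d * g₁⁻¹) * h⁻¹ = (h * g₁) * d * (h * g₁)⁻¹ := by group
      rw [this]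
      exact hconj _
    · have : h * (g₂ * d * g₂⁻¹) * h⁻¹ = (h * g₂) * d * (h * g₂)⁻¹ := by group
      rw [this]
      exact hconj _
  have hTp : IsPGroup p T := (P.isPGroup'.map N.subtype).to_le hTP
  have hTcore : T ≤ Cfsg.pCore p G := le_sSup ⟨inferInstance, hTp⟩
  intro a ha b hb
  exact hTcore (Subgroup.subset_normalClosure ⟨a, ha, b, hb, rfl⟩)

end CfsgLib.ZStarP
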